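import Cfsg.Agent.H586.GW.Cen
import Cfsg.Agent.CharDeep.Twist

/-!
# S4816: reduction to faithful characters of central `p'`-subgroups (helper696)
-/

set_option autoImplicit false
set_option linter.style.haveILetI false
set_option linter.unusedSectionVars false
open Cfsg

namespace Cfsg.Agent.H696.RIM

open Cfsg.Agent.Characters.Core Cfsg.Agent.Characters.Clifford Cfsg.Agent.H672
open Cfsg.Agent.H595.Triple Cfsg.Agent.H595.Central
open Cfsg.Agent.H672.RM (over_lin_iff TSet)
open Cfsg.Agent.H586.GW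
open scoped ComplexConjugate commutatorElement

universe u

/-- The goal for the normal subgroups of index `n`. -/
def Gl (p n : ℕ) : Prop :=
  ∀ {G : Type u} [Group G] [Finite G] (N : Subgroup G) [N.Normal] (θ : N → ℂ),
    IsIrrCharacter N θ → N.index = n → RelP p N.subtype θ → AbP p N

/-- The goal for faithful characters of central `p'`-subgroups of index `n`. -/
def CG (p n : ℕ) : Prop :=
  ∀ {G : Type u} [Group G] [Finite G] (Z : Subgroup G) (_ : Z ≤ Subgroup.center G)
    (l : Z →* ℂˣ), Function.Injective l → ¬ p ∣ Nat.card Z → Z.index = n →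
      RelP p Z.subtype (lf l) → AbP p Z

section
variable {p : ℕ} [hp : Fact p.Prime] {G : Type u} [Group G] [Finite G]

/-- Multiplication by a linear character of `G`. -/
theorem relP_mul (Z : Subgroup G) (hZ : Z ≤ Subgroup.center G) (l : Z →* ℂˣ) (μ : G →* ℂˣ)
    (h : RelP p Z.subtype (lf l)) : RelP p Z.subtype (lf (l * μ.comp Z.subtype)) := by
  intro χ hχ hov hd
  rw [over_lin_iff Z.subtype (fun z => hZ z.2) hχ] at hov
  have h1 : IsIrrCharacter G (fun g => ((μ⁻¹ g : ℂˣ) : ℂ) * χ g) := by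
    obtain ⟨n, ρ, hirr, hρ⟩ := hχ
    refine ⟨n, CharDeep.Twist.twist μ⁻¹ ρ, CharDeep.Twist.twist_irreducible _ _ hirr, ?_⟩
    funext g
    rw [CharDeep.Twist.twist_character, hρ]
  refine h _ h1 ?_ ?_
  · rw [over_lin_iff Z.subtype (fun z => hZ z.2) h1]
    intro z
    have h2 := hov z
    simp only [map_one, Units.val_one, one_mul]
    rw [h2, MonoidHom.mul_apply, MonoidHom.comp_apply, Units.val_mul, MonoidHom.inv_apply]
    have h3 : (((μ (Z.subtype z))⁻¹ : ℂˣ) : ℂ) * ((μ (Z.subtype z) : ℂˣ) : ℂ) = 1 := by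
      rw [← Units.val_mul, inv_mul_cancel, Units.val_one]
    linear_combination (χ 1 * (l z : ℂ)) * h3
  · have h2 : charDegree (fun g => ((μ⁻¹ g : ℂˣ) : ℂ) * χ g) = charDegree χ := by
      rw [Blocks.Basic.charDegree_def, Blocks.Basic.charDegree_def]
      simp
    rw [h2, charDegree_lf]
    rwa [charDegree_lf] at hd

/-- A twist of `p'`-order. -/
theorem exists_twist (Z : Subgroup G) (hZ : Z ≤ Subgroup.center G) (l : Z →* ℂˣ)
    (h : RelP p Z.subtype (lf l)) : ∃ (μ : G →* ℂˣ) (m : ℕ), ¬ p ∣ m ∧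
      ∀ z : Z, (l * μ.comp Z.subtype) z ^ m = 1 := by
  classical
  letI := Fintype.ofFinite G
  letI := Fintype.ofFinite Z
  haveI := center_normal Z hZ
  obtain ⟨χ, hχ, hov⟩ := exists_over_subtype Z (isIrr_lf l)
  have hd : ¬ p ∣ charDegree χ := by
    have := h χ hχ hov
    rwa [charDegree_lf, mul_one] at this
  have hz := (over_lin_iff Z.subtype (fun z => hZ z.2) hχ l).1 hov
  obtain ⟨n, ρ, hirr, hρ⟩ := hχ
  have hn : charDegree χ = n := by
    apply charDegree_of_eq
    rw [← hρ]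
    simp
  rw [hn] at hd
  -- the determinant of `ρ` on `Z`
  have hdet : ∀ z : Z, CharDeep.Twist.detHom ρ z = l z ^ n := by
    intro z
    obtain ⟨c, hc⟩ := Cfsg.Agent.CharactersDeep.Extraspecial.exists_central_hom_rep ρ hirr
    have h1 := hc ⟨z, hZ z.2⟩
    change ρ (z : G) = _ at h1
    have hn0 : (n : ℂ) ≠ 0 := by
      intro h0
      apply hd
      rw [Nat.cast_eq_zero.1 h0]
      exact dvd_zero p
    have h2 : ((c ⟨z, hZ z.2⟩ : ℂˣ) : ℂ) = l z := by
      have h3 := hz z
      rw [← hρ] at h3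
      change LinearMap.trace ℂ _ (ρ (z : G)) = LinearMap.trace ℂ _ (ρ 1) * _ at h3
      rw [h1, map_one, map_smul, LinearMap.trace_id, Module.End.one_eq_id, LinearMap.trace_id, Module.finrank_fin_fun, smul_eq_mul,
        mul_comm] at h3
      exact mul_left_cancel₀ hn0 h3
    apply Units.ext
    rw [CharDeep.Twist.detHom_apply, h1, LinearMap.det_smul, LinearMap.det_id, mul_one, h2,
      Module.finrank_fin_fun, Units.val_pow_eq_pow_val]
  obtain ⟨a, m, hm, hcard⟩ := Nat.exists_eq_pow_mul_and_not_dvd (n := Nat.card Z) Nat.card_pos.ne' p hp.out.ne_one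
  obtain ⟨j, hj⟩ : ∃ j : ℕ, n * j ≡ 1 [MOD p ^ a] := by
    have hcop : Nat.Coprime n (p ^ a) :=
      Nat.Coprime.pow_right _ ((Nat.Prime.coprime_iff_not_dvd hp.out).2 hd).symm
    rcases Nat.eq_zero_or_pos a with rfl | ha
    · exact ⟨0, by rw [pow_zero]; exact Nat.modEq_one⟩
    · have h1 : 1 < p ^ a := Nat.one_lt_pow ha.ne' hp.out.one_lt
      obtain ⟨j, -, hj⟩ := Nat.exists_mul_mod_eq_one_of_coprime hcop h1
      exact ⟨j, by rw [Nat.ModEq, hj, Nat.mod_eq_of_lt h1]⟩
  refine ⟨((CharDeep.Twist.detHom ρ)⁻¹) ^ j, m, hm, fun z => ?_⟩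
  have h1 : l z ^ (p ^ a * m) = 1 := by
    rw [← hcard, ← map_pow]
    rw [pow_card_eq_one', map_one]
  rw [MonoidHom.mul_apply, MonoidHom.comp_apply, MonoidHom.pow_apply, MonoidHom.inv_apply]
  change (l z * ((CharDeep.Twist.detHom ρ (z : G))⁻¹) ^ j) ^ m = 1
  rw [hdet]
  -- `l z` to the power `m (1 - n j)`
  have h2 : (l z ^ m) ^ (n * j) = l z ^ m := by
    have h3 : orderOf (l z ^ m) ∣ p ^ a := by
      apply orderOf_dvd_of_pow_eq_one
      rw [← pow_mul, mul_comm m, h1]
    have h4 : n * j ≡ 1 [MOD orderOf (l z ^ m)] := hj.of_dvd h3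
    rw [pow_eq_pow_iff_modEq.2 h4, pow_one]
  have h5 : (l z * ((l z ^ n)⁻¹) ^ j) ^ m = l z ^ m * ((l z ^ m) ^ (n * j))⁻¹ := by
    rw [mul_pow, inv_pow, inv_pow, ← pow_mul, ← pow_mul, ← pow_mul]
    congr 3
    ring
  rw [h5, h2, mul_inv_cancel]

/-- The central case for all linear characters. -/
theorem CG.all {n : ℕ} (h : CG.{u} p n) (Z : Subgroup G)
    (hZ : Z ≤ Subgroup.center G) (l₀ : Z →* ℂˣ)
    (hn : Z.index = n) (hrel₀ : RelP p Z.subtype (lf l₀)) : AbP p Z := by
  classical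
  obtain ⟨μ, m, hm, hpow⟩ := exists_twist Z hZ l₀ hrel₀
  obtain ⟨l, hl⟩ : ∃ l, l = l₀ * μ.comp Z.subtype := ⟨_, rfl⟩
  have hrel : RelP p Z.subtype (lf l) := hl ▸ relP_mul Z hZ l₀ μ hrel₀
  rw [← hl] at hpow
  let K : Subgroup G := l.ker.map Z.subtype
  have hKZ : K ≤ Z := by
    rintro _ ⟨z, -, rfl⟩
    exact z.2
  haveI hK : K.Normal := center_normal K (hKZ.trans hZ)
  let q : G →* G ⧸ K := QuotientGroup.mk' K
  have hq : Function.Surjective q := QuotientGroup.mk'_surjective K
  have hkq : q.ker = K := QuotientGroup.ker_mk' K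
  let Z' : Subgroup (G ⧸ K) := Z.map q
  have hcomap : Z'.comap q = Z := by
    rw [Subgroup.comap_map_eq, hkq, sup_eq_left.2 hKZ]
  have hZ' : Z' ≤ Subgroup.center (G ⧸ K) := by
    rintro _ ⟨z, hz, rfl⟩
    rw [Subgroup.mem_center_iff]
    intro x
    obtain ⟨x, rfl⟩ := hq x
    rw [← map_mul, ← map_mul, Subgroup.mem_center_iff.1 (hZ hz) x]
  let f : Z →* Z' := (q.comp Z.subtype).codRestrict Z' (fun z => ⟨z, z.2, rfl⟩)
  have hf : Function.Surjective f := by
    rintro ⟨_, z, hz, rfl⟩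
    exact ⟨⟨z, hz⟩, rfl⟩
  have hkf : f.ker ≤ l.ker := by
    intro z hz
    have h1 : q (z : G) = 1 := congrArg Subtype.val (MonoidHom.mem_ker.1 hz)
    have h2 : (z : G) ∈ K := by rw [← hkq]; exact MonoidHom.mem_ker.2 h1
    obtain ⟨w, hw, hwz⟩ := h2
    have : w = z := Subtype.ext hwz
    rwa [← this]
  let l' : Z' →* ℂˣ := f.liftOfSurjective hf ⟨l, hkf⟩
  have hl' : ∀ z, l' (f z) = l z := fun z => MonoidHom.liftOfRightInverse_comp_apply _ _ _ _ _
  have hinj : Function.Injective l' := by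
    rw [injective_iff_map_eq_one]
    intro z hz
    obtain ⟨z, rfl⟩ := hf z
    rw [hl'] at hz
    apply Subtype.ext
    change q (z : G) = 1
    rw [← MonoidHom.mem_ker, hkq]
    exact ⟨z, hz, rfl⟩
  have hcard : ¬ p ∣ Nat.card Z' := by
    intro hd
    obtain ⟨z, hz⟩ := exists_prime_orderOf_dvd_card' p hd
    obtain ⟨z₀, rfl⟩ := hf z
    have h1 : f z₀ ^ m = 1 := by
      apply hinj
      rw [map_pow, hl', hpow, map_one]
    exact hm (hz ▸ orderOf_dvd_of_pow_eq_one h1)
  have hab : AbP p Z' := by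
    refine h Z' hZ' l' hinj hcard ?_ ?_
    · rw [← hn]
      exact Subgroup.index_map_eq Z hq (by rw [hkq]; exact hKZ)
    · intro χ hχ hov hd
      have h1 : IsIrrCharacter G (χ ∘ q) := isIrr_comp q hq hχ
      refine hrel (χ ∘ q) h1 ?_ ?_
      · rw [over_lin_iff Z.subtype (fun z => hZ z.2) h1]
        rw [over_lin_iff Z'.subtype (fun z => hZ' z.2) hχ] at hov
        intro z
        have h2 := hov (f z)
        rw [hl'] at h2
        change χ (q z) = χ (q 1) * _
        rw [map_one]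
        exact h2
      · rw [charDegree_comp_one, charDegree_lf]
        rwa [charDegree_lf] at hd
  rw [← hcomap]
  exact hab.comap q hq

end

/-- **Reduction to the central case.** -/
theorem gl_of_cg {p : ℕ} [hp : Fact p.Prime] {n : ℕ} (ih : ∀ k < n, Gl.{u} p k)
    (hc : CG.{u} p n) : Gl.{u} p n := by
  intro G _ _ N _ θ hθ hn hrel
  have hidx := hrel.not_dvd_index N hθ
  have hNT : N ≤ inertia N θ := le_inertia (isIrr_isClassFunction hθ)
  by_cases hT : inertia N θ = ⊤
  · obtain ⟨Δ, Q, _, _, _, π, m, Z, l, hπ, hm, hcomap, hZ, h1, -⟩ :=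
      exists_triple (p := p) N hθ hT
    apply AbP.of_comap π hπ
    rw [hcomap]
    refine AbP.comap m hm (hc.all Z hZ l ?_ (h1 hrel))
    rw [← hn, ← Subgroup.index_comap_of_surjective N hπ, hcomap,
      Subgroup.index_comap_of_surjective Z hm]
  · apply AbP.of_index N hp.out hNT hidx
    have h1 := hrel.inertia N hθ _ rfl hNT
    have h2 := relP_equiv _ (Subgroup.subgroupOfEquivOfLe hNT) h1
    have h3 : (N.subgroupOf (inertia N θ)).index < n := by
      rw [← hn]
      have h4 : N.relIndex (inertia N θ) * (inertia N θ).index = N.index :=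
        Subgroup.relIndex_mul_index hNT
      have h5 : (inertia N θ).index ≠ 1 := fun h => hT (Subgroup.index_eq_one.1 h)
      have h6 : (inertia N θ).index ≠ 0 := Subgroup.index_ne_zero_of_finite
      have h7 : N.relIndex (inertia N θ) ≠ 0 := Subgroup.index_ne_zero_of_finite
      change N.relIndex (inertia N θ) < N.index
      rw [← h4]
      have h8 : 2 ≤ (inertia N θ).index := by omega
      nlinarith [Nat.pos_of_ne_zero h7]
    refine ih _ h3 (N.subgroupOf (inertia N θ)) _ ?_ rfl h2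
    exact isIrr_comp (Subgroup.subgroupOfEquivOfLe hNT).toMonoidHom
        (Subgroup.subgroupOfEquivOfLe hNT).surjective hθ

/-- **S4816 from the central case.** -/
theorem main_of {p : ℕ} [hp : Fact p.Prime] (h : ∀ n : ℕ, (∀ k < n, Gl.{u} p k) → CG.{u} p n)
    {G : Type u} [Group G] [Fintype G] (N : Subgroup G) [N.Normal] [Fintype N] (θ : Cfsg.IrrCharacter N)
    (hdeg : ∀ χ : Cfsg.IrrCharacter G, Cfsg.classInner (fun n : N => (χ : G → ℂ) n) (θ : N → ℂ) ≠ 0 →
      (Cfsg.charDegree (χ : G → ℂ)).factorization p = (Cfsg.charDegree (θ : N → ℂ)).factorization p)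
    (Q : Sylow p (G ⧸ N)) : IsMulCommutative (Q : Subgroup (G ⧸ N)) := by
  classical
  have hall : ∀ n, Gl.{u} p n := by
    intro n
    induction n using Nat.strong_induction_on with
    | _ n ih => exact gl_of_cg ih (h n ih)
  have hrel : RelP p N.subtype (θ : N → ℂ) := by
    intro χ hχ hov hd
    have h1 := hdeg ⟨χ, hχ⟩ (by
      rw [over_iff] at hov
      convert hov
      rfl)
    have h2 : charDegree χ ≠ 0 := (charDegree_pos hχ).ne'
    have h3 : charDegree (θ : N → ℂ) ≠ 0 := (charDegree_pos θ.2).ne'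
    have h4 := (Nat.factorization_le_iff_dvd (mul_ne_zero hp.out.ne_zero h3) h2).2 hd p
    rw [Nat.factorization_mul hp.out.ne_zero h3, Finsupp.add_apply, hp.out.factorization_self] at h4
    change (charDegree χ).factorization p = _ at h1
    omega
  have hab : AbP p N := hall _ N θ θ.2 rfl hrel
  refine ⟨⟨fun a b => ?_⟩⟩
  obtain ⟨a', ha'⟩ := QuotientGroup.mk'_surjective N (a : G ⧸ N)
  obtain ⟨b', hb'⟩ := QuotientGroup.mk'_surjective N (b : G ⧸ N)
  have hQ := Q.isPGroup'
  obtain ⟨k, hk⟩ := IsPGroup.iff_card.1 hQ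
  have h1 := hab ((Q : Subgroup (G ⧸ N)).comap (QuotientGroup.mk' N)) (by
    intro n hn
    rw [Subgroup.mem_comap, QuotientGroup.mk'_apply, (QuotientGroup.eq_one_iff n).2 hn]
    exact one_mem _) ⟨k, by
      have h2 := Subgroup.relIndex_comap (⊥ : Subgroup (G ⧸ N)) (QuotientGroup.mk' N)
        ((Q : Subgroup (G ⧸ N)).comap (QuotientGroup.mk' N))
      have h3 : (⊥ : Subgroup (G ⧸ N)).comap (QuotientGroup.mk' N) = N := by
        rw [MonoidHom.comap_bot, QuotientGroup.ker_mk']
      rw [h3, Subgroup.map_comap_eq_self_of_surjective (QuotientGroup.mk'_surjective N),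
        Subgroup.relIndex_bot_left] at h2
      rw [h2, hk]⟩ a' (by rw [Subgroup.mem_comap, ha']; exact a.2) b'
    (by rw [Subgroup.mem_comap, hb']; exact b.2)
  have h2 : QuotientGroup.mk' N ⁅a', b'⁆ = 1 := (QuotientGroup.eq_one_iff _).2 h1
  rw [map_commutatorElement, ha', hb', commutatorElement_eq_one_iff_mul_comm] at h2
  exact Subtype.ext h2

end Cfsg.Agent.H696.RIM
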