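import Cfsg.Agent.H665.RIM.Defs
import Cfsg.Agent.H325.RIM.Base
import Cfsg.Agent.H696.RIM.Cen

/-!
# S4816: bad quasi-simple groups and the rows `NBall` (helper696)

* `exists_ext_hom` : linear characters of subgroups of finite abelian groups extend;
* `not_qBad` : if `E / Z(E) ≅ S` and `NBall p S`, then `E` is not bad;
* `rowR_of` : `RowR` from the rows.
-/

set_option autoImplicit false
set_option linter.unusedSectionVars false
set_option linter.style.haveILetI false
open Cfsg

namespace Cfsg.Agent.H696.RIM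

open Cfsg.Agent.Characters.Core Cfsg.Agent.Characters.Clifford Cfsg.Agent.H672
open Cfsg.Agent.H229.RIM Cfsg.Agent.H665.RIM
open Cfsg.Agent.H586.GW (center_normal)
open scoped commutatorElement

universe u v

/-- Linear characters of subgroups of a central subgroup extend. -/
theorem exists_ext_cen {E : Type u} [Group E] [Finite E] {N C : Subgroup E} (hC : C ≤ Subgroup.center E)
    (hNC : N ≤ C) (φ : N →* ℂˣ) : ∃ l : C →* ℂˣ, ∀ n (hn : n ∈ N), l ⟨n, hNC hn⟩ = φ ⟨n, hn⟩ := by
  classical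
  letI : CommGroup C :=
    { (inferInstance : Group C) with
      mul_comm := fun a b => Subtype.ext (Subgroup.mem_center_iff.1 (hC b.2) (a : E)) }
  let φ' : N.subgroupOf C →* ℂˣ := φ.comp (Subgroup.subgroupOfEquivOfLe hNC).toMonoidHom
  obtain ⟨l, hl⟩ := MonoidHom.domRestrict_surjective ℂ (N.subgroupOf C) φ'
  refine ⟨l, fun n hn => ?_⟩
  have := DFunLike.congr_fun hl ⟨⟨n, hNC hn⟩, hn⟩
  exact this

/-- **The row `NBall` excludes bad quasi-simple groups.** -/
theorem not_qBad {p : ℕ} {E : Type u} [Group E] [Finite E] {N : Subgroup E} {φ : N →* ℂˣ}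
    (h : NBall.{u} p (E ⧸ Subgroup.center E)) (B : QBad p N φ) : False := by
  classical
  let C : Subgroup E := Subgroup.center E
  haveI : C.Normal := center_normal C le_rfl
  obtain ⟨l, hl⟩ := exists_ext_cen (C := C) le_rfl B.cen φ
  let K : Subgroup E := l.ker.map C.subtype
  have hKC : K ≤ C := Subgroup.map_subtype_le _
  haveI hK : K.Normal := center_normal K hKC
  let q : E →* E ⧸ K := QuotientGroup.mk' K
  have hq : Function.Surjective q := QuotientGroup.mk'_surjective K
  have hq1 : ∀ x, q x = 1 ↔ x ∈ K := fun x => QuotientGroup.eq_one_iff x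
  let π : E ⧸ K →* E ⧸ Subgroup.center E := QuotientGroup.lift K (QuotientGroup.mk' C)
    (fun k hk => (QuotientGroup.eq_one_iff k).2 (hKC hk))
  have hπq : ∀ x, π (q x) = QuotientGroup.mk' C x := fun _ => rfl
  have hπ : Function.Surjective π := by
    intro y
    obtain ⟨x, rfl⟩ := QuotientGroup.mk'_surjective C y
    exact ⟨q x, rfl⟩
  have hker : ∀ x, q x ∈ π.ker ↔ x ∈ C := by
    intro x
    rw [MonoidHom.mem_ker, hπq]
    exact QuotientGroup.eq_one_iff x
  have hcen : π.ker ≤ Subgroup.center (E ⧸ K) := by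
    intro y hy
    obtain ⟨x, rfl⟩ := hq y
    rw [hker] at hy
    rw [Subgroup.mem_center_iff]
    intro z
    obtain ⟨z, rfl⟩ := hq z
    rw [← map_mul, ← map_mul, Subgroup.mem_center_iff.1 hy z]
  have hperf : commutator (E ⧸ K) = ⊤ := by
    have h1 : (commutator E).map q = commutator (E ⧸ K) := by
      rw [commutator_def, Subgroup.map_commutator, commutator_def]
      congr 1 <;> exact Subgroup.map_top_of_surjective _ hq
    rw [← h1, B.perf]
    exact Subgroup.map_top_of_surjective _ hq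
  let f : C →* π.ker := (q.comp C.subtype).codRestrict π.ker (fun z => (hker z).2 z.2)
  have hf : Function.Surjective f := by
    rintro ⟨y, hy⟩
    obtain ⟨x, rfl⟩ := hq y
    exact ⟨⟨x, (hker x).1 hy⟩, rfl⟩
  have hkf : f.ker ≤ l.ker := by
    intro z hz
    have h1 : q (z : E) = 1 := congrArg Subtype.val (MonoidHom.mem_ker.1 hz)
    obtain ⟨w, hw, hwz⟩ := (hq1 _).1 h1
    have : w = z := Subtype.ext hwz
    rwa [← this]
  let l' : π.ker →* ℂˣ := f.liftOfSurjective hf ⟨l, hkf⟩
  have hl' : ∀ z, l' (f z) = l z := fun z => MonoidHom.liftOfRightInverse_comp_apply _ _ _ _ _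
  have hinj : Function.Injective l' := by
    rw [injective_iff_map_eq_one]
    intro z hz
    obtain ⟨z, rfl⟩ := hf z
    rw [hl'] at hz
    apply Subtype.ext
    exact (hq1 _).2 ⟨z, hz, rfl⟩
  have hcard : ¬ p ∣ Nat.card π.ker := fun hd => B.pZ (hd.trans (Subgroup.card_dvd_of_surjective f hf))
  have htwo : 2 ≤ Nat.card π.ker := by
    obtain ⟨n, hn⟩ : ∃ n : N, n ≠ 1 := by
      by_contra hcon
      push Not at hcon
      apply B.Nne
      rw [eq_bot_iff]
      intro n hn
      have := hcon ⟨n, hn⟩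
      exact congrArg Subtype.val this
    have h1 : f ⟨n, B.cen n.2⟩ ≠ 1 := by
      intro h2
      have h3 : (⟨n, B.cen n.2⟩ : C) ∈ l.ker := hkf (MonoidHom.mem_ker.2 h2)
      rw [MonoidHom.mem_ker, hl n n.2] at h3
      apply hn
      apply B.inj
      rw [map_one]
      exact h3
    haveI : Nontrivial π.ker := ⟨⟨_, _, h1⟩⟩
    have := Finite.one_lt_card (α := π.ker)
    omega
  obtain ⟨χ, hχ, hov, hd⟩ := h (Nat.card π.ker) htwo hcard (E ⧸ K) π hπ hcen hperf rfl l' hinj
  refine B.bad (χ ∘ q) (isIrr_comp q hq hχ) ?_ ?_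
  · intro n
    have h1 := hov (f ⟨n, B.cen n.2⟩)
    rw [hl', hl n n.2] at h1
    change χ (q n) = χ (q 1) * _
    rw [map_one]
    exact h1
  · rw [charDegree_comp_one]
    exact hd

/-- the row for an isomorphic group -/
theorem not_qBad' {p : ℕ} {E : Type u} [Group E] [Finite E] {N : Subgroup E} {φ : N →* ℂˣ}
    {S : Type v} [Group S] (e : E ⧸ Subgroup.center E ≃* S) (h : NBall.{v} p S) (B : QBad p N φ) :
    False :=
  not_qBad (H325.RIM.NBall.congr e h) B

section
variable {p : ℕ} {E : Type u} [Group E] [Finite E] {N : Subgroup E} {φ : N →* ℂˣ}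

theorem qBad_na (B : QBad p N φ) : ¬ IsMulCommutative (E ⧸ Subgroup.center E) := by
  intro h
  have h1 : commutator E ≤ Subgroup.center E := by
    rw [commutator_def, Subgroup.commutator_le]
    intro a _ b _
    rw [← QuotientGroup.eq_one_iff]
    change ⁅(a : E ⧸ Subgroup.center E), (b : E ⧸ Subgroup.center E)⁆ = 1
    rw [commutatorElement_eq_one_iff_mul_comm]
    exact h.is_comm.comm _ _
  rw [B.perf] at h1
  haveI := B.simp
  obtain ⟨x, hx⟩ := exists_ne (1 : E ⧸ Subgroup.center E)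
  obtain ⟨x, rfl⟩ := QuotientGroup.mk_surjective x
  exact hx ((QuotientGroup.eq_one_iff x).2 (h1 (Subgroup.mem_top x)))

theorem qBad_dvd (hp : p.Prime) (B : QBad p N φ) : p ∣ Nat.card (E ⧸ Subgroup.center E) := by
  have h1 := B.pE
  rw [Subgroup.card_eq_card_quotient_mul_card_subgroup (Subgroup.center E)] at h1
  exact (hp.dvd_mul.1 h1).resolve_right B.pZ

/-- The Sylow `p`-subgroups of a bad quasi-simple group are those of the simple group. -/
theorem qBad_comm (B : QBad p N φ) (hab : AbSyl p (E ⧸ Subgroup.center E)) {P : Subgroup E}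
    (hP : IsPGroup p P) (hp : p.Prime) : ∀ a ∈ P, ∀ b ∈ P, a * b = b * a := by
  haveI : Fact p.Prime := ⟨hp⟩
  intro a ha b hb
  have h1 := hab (P.map (QuotientGroup.mk' (Subgroup.center E))) (hP.map _) _ ⟨a, ha, rfl⟩ _ ⟨b, hb, rfl⟩
  rw [← commutatorElement_eq_one_iff_mul_comm, ← map_commutatorElement] at h1
  have h2 : ⁅a, b⁆ ∈ Subgroup.center E := (QuotientGroup.eq_one_iff _).1 h1
  have h3 : ⁅a, b⁆ ∈ P := P.mul_mem (P.mul_mem (P.mul_mem ha hb) (P.inv_mem ha)) (P.inv_mem hb)
  obtain ⟨k, hk⟩ := hP ⟨_, h3⟩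
  have h4 : ⁅a, b⁆ ^ p ^ k = 1 := congrArg Subtype.val hk
  have h5 : ⁅a, b⁆ ^ Nat.card (Subgroup.center E) = 1 := by
    rw [← orderOf_dvd_iff_pow_eq_one]
    exact Subgroup.orderOf_dvd_natCard _ h2
  have h6 := pow_gcd_eq_one.2 ⟨h4, h5⟩
  have h7 : Nat.Coprime (p ^ k) (Nat.card (Subgroup.center E)) :=
    Nat.Coprime.pow_left _ ((Nat.Prime.coprime_iff_not_dvd hp).2 B.pZ)
  rw [h7.gcd_eq_one, pow_one] at h6
  exact commutatorElement_eq_one_iff_mul_comm.1 h6

end

/-- **`RowR` from the rows.** -/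
theorem rowR_of {p : ℕ} (hp : p.Prime)
    (h : ∀ (S : Type u) [Group S] [Finite S] [IsSimpleGroup S], ¬ IsMulCommutative S →
      p ∣ Nat.card S → ¬ AbSyl p S → NBall.{u} p S) : RowR.{u} p := by
  intro E _ _ N φ B P
  haveI := B.simp
  by_cases hab : AbSyl p (E ⧸ Subgroup.center E)
  · exact qBad_comm B hab P.isPGroup' hp
  · exact (not_qBad (h _ (qBad_na B) (qBad_dvd hp B) hab) B).elim

end Cfsg.Agent.H696.RIM
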